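import Mathlib
import Cfsg.Agent.Lib.Helper63.BB.Defs

/-!
# S4144 project "BB": package [JC] (jump counting)
-/

set_option autoImplicit false

namespace Cfsg.Agent.Lib.Helper84.BB

open Cfsg.Agent.Lib.Helper63.BB

universe u

theorem card_mul_relIndex_eq {G : Type u} [Group G] (A B : Subgroup G) (hAB : A ≤ B) :
    Nat.card A * A.relIndex B = Nat.card B := by
  have := Subgroup.relIndex_mul_relIndex (⊥ : Subgroup G) A B bot_le hAB
  rwa [Subgroup.relIndex_bot_left, Subgroup.relIndex_bot_left] at this

theorem card_inf_le_mul {G : Type u} [Group G] [Finite G] (p : ℕ) (U A B : Subgroup G)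
    (hAB : A ≤ B) (hc : Nat.card B ≤ p * Nat.card A) :
    Nat.card (U ⊓ B : Subgroup G) ≤ p * Nat.card (U ⊓ A : Subgroup G) := by
  have hA : 0 < Nat.card A := Nat.card_pos
  have hB : 0 < Nat.card B := Nat.card_pos
  have h1 : Nat.card A * A.relIndex B = Nat.card B := card_mul_relIndex_eq A B hAB
  have h2 : A.relIndex B ≤ p := by
    by_contra hlt
    push_neg at hlt
    have : Nat.card A * p < Nat.card A * A.relIndex B := Nat.mul_lt_mul_of_pos_left hlt hA
    rw [h1, mul_comm] at this
    omega
  have h3 : (U ⊓ A : Subgroup G) = A ⊓ (U ⊓ B) := by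
    apply le_antisymm
    · intro x hx
      exact ⟨hx.2, hx.1, hAB hx.2⟩
    · intro x hx
      exact ⟨hx.2.1, hx.1⟩
  have h4 : (U ⊓ A : Subgroup G).relIndex (U ⊓ B) = A.relIndex (U ⊓ B) := by
    rw [h3]; exact Subgroup.inf_relIndex_right A (U ⊓ B)
  have h5 : A.relIndex (U ⊓ B) ≤ A.relIndex B :=
    Subgroup.relIndex_le_of_le_right inf_le_right (by
      intro h0
      rw [h0] at h1
      omega)
  have h6 : Nat.card (U ⊓ A : Subgroup G) * (U ⊓ A : Subgroup G).relIndex (U ⊓ B) =
      Nat.card (U ⊓ B : Subgroup G) :=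
    card_mul_relIndex_eq _ _ (inf_le_inf_left U hAB)
  calc Nat.card (U ⊓ B : Subgroup G)
      = Nat.card (U ⊓ A : Subgroup G) * (U ⊓ A : Subgroup G).relIndex (U ⊓ B) := h6.symm
    _ ≤ Nat.card (U ⊓ A : Subgroup G) * p :=
        Nat.mul_le_mul_left _ (by rw [h4]; exact h5.trans h2)
    _ = p * Nat.card (U ⊓ A : Subgroup G) := mul_comm _ _

theorem card_mul_le_of_lt {G : Type u} [Group G] [Finite G] (p : ℕ) [Fact p.Prime]
    (hG : IsPGroup p G) (A B : Subgroup G) (hAB : A < B) : p * Nat.card A ≤ Nat.card B := by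
  have hp : p.Prime := Fact.out
  obtain ⟨a, ha⟩ := (hG.to_subgroup A).exists_card_eq
  obtain ⟨b, hb⟩ := (hG.to_subgroup B).exists_card_eq
  have hlt : Nat.card A < Nat.card B := by
    by_contra hge
    push_neg at hge
    exact hAB.ne (Subgroup.eq_of_le_of_card_ge hAB.le hge)
  rw [ha, hb] at hlt ⊢
  have hab : a < b := (Nat.pow_lt_pow_iff_right hp.one_lt).mp hlt
  calc p * p ^ a = p ^ (a + 1) := by ring
    _ ≤ p ^ b := Nat.pow_le_pow_right hp.pos hab

theorem pkgJumpCount : PkgJumpCount.{u} := by
  intro G _ _ p _ hG N d F hF hN hFc U V hU hjump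
  have hp : p.Prime := Fact.out
  have hbot : ∀ j, N ≤ j → F j = ⊥ := by
    intro j hj
    induction j, hj using Nat.le_induction with
    | base => exact hN
    | succ j hj ih => exact le_bot_iff.mp (ih ▸ hF j)
  have hanti : ∀ i j, i ≤ j → F j ≤ F i := by
    intro i j hij
    induction j, hij using Nat.le_induction with
    | base => exact le_rfl
    | succ j hj ih => exact (hF j).trans ih
  have key : ∀ k, k ≤ N → Nat.card (U ⊓ F (N - k) : Subgroup G) ≤
      p ^ (min d k) * Nat.card (V ⊓ F (N - k + d) : Subgroup G) := by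
    intro k
    induction k with
    | zero =>
      intro _
      have h1 : F (N - 0) = ⊥ := by simpa using hN
      have h2 : F (N - 0 + d) = ⊥ := hbot _ (by omega)
      rw [h1, h2]
      simp
    | succ k ih =>
      intro hk
      have ih' := ih (by omega)
      obtain ⟨i, hi⟩ : ∃ i, i = N - (k + 1) := ⟨_, rfl⟩
      have hi1 : N - k = i + 1 := by omega
      rw [hi1] at ih'
      rw [← hi]
      by_cases hex : ∃ x ∈ U, x ∈ F i ∧ x ∉ F (i + 1)
      · obtain ⟨x, hxU, hxi, hxi1⟩ := hex
        have hg : Nat.card (U ⊓ F i : Subgroup G) ≤ p * Nat.card (U ⊓ F (i + 1) : Subgroup G) :=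
          card_inf_le_mul p U (F (i + 1)) (F i) (hF i) (hFc i (by omega))
        by_cases hid : i + d < N
        · obtain ⟨y, hyV, hy1, hy2⟩ := hjump i hid x hxU hxi hxi1
          have hlt : (V ⊓ F (i + d + 1) : Subgroup G) < V ⊓ F (i + d) := by
            refine lt_of_le_of_ne (inf_le_inf_left V (hF (i + d))) ?_
            intro heq
            have : y ∈ (V ⊓ F (i + d + 1) : Subgroup G) := by rw [heq]; exact ⟨hyV, hy1⟩
            exact hy2 this.2
          have hh := card_mul_le_of_lt p hG _ _ hlt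
          have e1 : i + 1 + d = i + d + 1 := by omega
          rw [e1] at ih'
          have hmin : min d k ≤ min d (k + 1) := by omega
          calc Nat.card (U ⊓ F i : Subgroup G)
              ≤ p * Nat.card (U ⊓ F (i + 1) : Subgroup G) := hg
            _ ≤ p * (p ^ (min d k) * Nat.card (V ⊓ F (i + d + 1) : Subgroup G)) :=
                Nat.mul_le_mul_left _ ih'
            _ = p ^ (min d k) * (p * Nat.card (V ⊓ F (i + d + 1) : Subgroup G)) := by ring
            _ ≤ p ^ (min d k) * Nat.card (V ⊓ F (i + d) : Subgroup G) :=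
                Nat.mul_le_mul_left _ hh
            _ ≤ p ^ (min d (k + 1)) * Nat.card (V ⊓ F (i + d) : Subgroup G) :=
                Nat.mul_le_mul_right _ (Nat.pow_le_pow_right hp.pos hmin)
        · push_neg at hid
          have hk1 : min d (k + 1) = k + 1 := by omega
          have hk0 : min d k = k := by omega
          have hb1 : F (i + 1 + d) = ⊥ := hbot _ (by omega)
          have hb0 : F (i + d) = ⊥ := hbot _ hid
          rw [hb1, hk0] at ih'
          rw [hb0, hk1]
          have e : Nat.card ((V ⊓ ⊥ : Subgroup G)) = 1 := by simp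
          rw [e] at ih' ⊢
          calc Nat.card (U ⊓ F i : Subgroup G)
              ≤ p * Nat.card (U ⊓ F (i + 1) : Subgroup G) := hg
            _ ≤ p * (p ^ k * 1) := Nat.mul_le_mul_left _ ih'
            _ = p ^ (k + 1) * 1 := by ring
      · push_neg at hex
        have heq : (U ⊓ F i : Subgroup G) = U ⊓ F (i + 1) := by
          apply le_antisymm
          · intro x hx
            exact ⟨hx.1, hex x hx.1 hx.2⟩
          · exact inf_le_inf_left U (hF i)
        rw [heq]
        have hle : Nat.card (V ⊓ F (i + 1 + d) : Subgroup G) ≤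
            Nat.card (V ⊓ F (i + d) : Subgroup G) :=
          Subgroup.card_le_of_le (inf_le_inf_left V (hanti _ _ (by omega)))
        calc Nat.card (U ⊓ F (i + 1) : Subgroup G)
            ≤ p ^ (min d k) * Nat.card (V ⊓ F (i + 1 + d) : Subgroup G) := ih'
          _ ≤ p ^ (min d (k + 1)) * Nat.card (V ⊓ F (i + d) : Subgroup G) :=
              Nat.mul_le_mul (Nat.pow_le_pow_right hp.pos (by omega)) hle
  have h0 := key N le_rfl
  simp only [Nat.sub_self, zero_add] at h0
  have hU0 : (U ⊓ F 0 : Subgroup G) = U := inf_eq_left.mpr hU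
  rw [hU0] at h0
  calc Nat.card U ≤ p ^ (min d N) * Nat.card (V ⊓ F d : Subgroup G) := h0
    _ ≤ p ^ d * Nat.card V :=
        Nat.mul_le_mul (Nat.pow_le_pow_right hp.pos (min_le_left _ _))
          (Subgroup.card_le_of_le inf_le_left)

end Cfsg.Agent.Lib.Helper84.BB
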