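import Mathlib
import Cfsg.Agent.Lib.Helper63.BB.Defs
import Cfsg.Agent.Lib.Helper59.MC.Struct
import Cfsg.Agent.Lib.Helper84.BB.JumpCount

/-!
# S4144 project "BB": package [SUB] (proper subgroups, given the power structure)
-/

set_option autoImplicit false

namespace Cfsg.Agent.Lib.Helper84.BB

open Cfsg.Agent.Lib.Helper63.BB Cfsg.Agent.Lib.Helper63.MC

universe u

theorem pkgSub_of (hJC : PkgJumpCount.{u}) : PkgSub.{u} := by
  intro X _ _ p _ n hn hcard hcl hPS H hH
  have hp : p.Prime := Fact.out
  obtain ⟨hcL, -⟩ := Cfsg.Agent.Lib.Helper59.MC.pkgStruct X p n (by omega) hcard hcl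
  have hPG : IsPGroup p X := IsPGroup.of_card hcard
  obtain ⟨hPS1, hPS2⟩ := hPS
  have hVH : Subgroup.closure {y : X | ∃ h ∈ H, y = h ^ p} ≤ H := by
    rw [Subgroup.closure_le]
    rintro y ⟨h, hh, rfl⟩
    exact H.pow_mem hh p
  have hpowV : ∀ h ∈ H, h ^ p ∈ Subgroup.closure {y : X | ∃ h ∈ H, y = h ^ p} := by
    intro h hh
    exact Subgroup.subset_closure ⟨h, hh, rfl⟩
  generalize Subgroup.closure {y : X | ∃ h ∈ H, y = h ^ p} = V at hVH hpowV ⊢
  have hHcard : Nat.card H < p ^ n := by
    by_contra hge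
    push_neg at hge
    exact hH (Subgroup.eq_top_of_le_card H (by rw [hcard]; exact hge))
  obtain ⟨k, hk⟩ := (hPG.to_subgroup H).exists_card_eq
  have hkn : k < n := by
    rw [hk] at hHcard
    exact (Nat.pow_lt_pow_iff_right hp.one_lt).mp hHcard
  have hdvd : p ^ (n - 1) ∣ Nat.card X := by
    rw [hcard]; exact pow_dvd_pow p (by omega)
  obtain ⟨M, hMcard, hHM⟩ := Sylow.exists_subgroup_card_pow_prime_le p hdvd H hk (by omega)
  have hMidx : M.index = p := by
    have h1 := Subgroup.card_mul_index M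
    rw [hMcard, hcard] at h1
    have h2 : p ^ n = p ^ (n - 1) * p := by
      rw [← pow_succ]; congr 1; omega
    rw [h2] at h1
    exact Nat.eq_of_mul_eq_mul_left (pow_pos hp.pos _) h1
  haveI hMn : M.Normal := by
    apply Subgroup.normal_of_index_eq_minFac_card
    rw [hMidx, hcard, hp.pow_minFac (by omega)]
  have hL1M : L X 1 ≤ M := by
    have hcardQ : Nat.card (X ⧸ M) = p := by rw [← Subgroup.index_eq_card]; exact hMidx
    haveI : IsCyclic (X ⧸ M) := isCyclic_of_prime_card (p := p) hcardQ
    have hcomm : ∀ a b : X ⧸ M, a * b = b * a := isMulCommutative_iff.mp inferInstance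
    show (⊤ : Subgroup X).lowerCentralSeries 1 ≤ M
    rw [Subgroup.lowerCentralSeries_succ, Subgroup.lowerCentralSeries_zero, Subgroup.commutator_le]
    intro a _ b _
    rw [← QuotientGroup.eq_one_iff (N := M), commutatorElement_def]
    simp only [QuotientGroup.mk_mul, QuotientGroup.mk_inv]
    rw [hcomm (a : X ⧸ M) b]
    group
  have h1 : Nat.card H ≤ p * Nat.card (H ⊓ L X 1 : Subgroup X) := by
    have := card_inf_le_mul p H (L X 1) M hL1M (by
      rw [hMcard, hcL 1 le_rfl (by omega), ← pow_succ']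
      exact le_of_eq (by congr 1; omega))
    rwa [inf_eq_left.mpr hHM] at this
  have h2 : Nat.card (H ⊓ L X 1 : Subgroup X) ≤ p ^ (p - 1) * Nat.card V := by
    refine hJC X p hPG (n - 2) (p - 1) (fun i => L X (i + 1)) ?_ ?_ ?_ (H ⊓ L X 1) V
      inf_le_right ?_
    · intro i
      exact Subgroup.lowerCentralSeries_antitone _ (by omega)
    · have h1' : Nat.card (L X (n - 1)) = 1 := by
        rw [hcL (n - 1) (by omega) le_rfl]; simp
      have e : n - 2 + 1 = n - 1 := by omega
      show L X (n - 2 + 1) = ⊥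
      rw [e]
      exact Subgroup.card_eq_one.mp h1'
    · intro i hi
      show Nat.card (L X (i + 1)) ≤ p * Nat.card (L X (i + 1 + 1))
      rw [hcL (i + 1) (by omega) (by omega), hcL (i + 1 + 1) (by omega) (by omega), ← pow_succ']
      exact le_of_eq (by congr 1; omega)
    · intro i hi x hxU hxi hxi1
      have hp1 := hp.pos
      refine ⟨x ^ p, hpowV x hxU.1, ?_, ?_⟩
      · have h := hPS1 (i + 1) (by omega) x hxi
        have e : i + 1 + p - 1 = i + (p - 1) + 1 := by omega
        rw [e] at h
        exact h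
      · have h := hPS2 (i + 1) (by omega) (by omega) x hxi hxi1
        have e : i + 1 + p = i + (p - 1) + 1 + 1 := by omega
        rw [e] at h
        exact h
  have h3 : Nat.card V * V.relIndex H = Nat.card H := card_mul_relIndex_eq V H hVH
  have hVpos : 0 < Nat.card V := Nat.card_pos
  have h4 : Nat.card H ≤ p ^ p * Nat.card V := by
    calc Nat.card H ≤ p * Nat.card (H ⊓ L X 1 : Subgroup X) := h1
      _ ≤ p * (p ^ (p - 1) * Nat.card V) := Nat.mul_le_mul_left _ h2
      _ = p ^ p * Nat.card V := by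
          rw [← mul_assoc, ← pow_succ']
          congr 2
          have := hp.pos
          omega
  by_contra hlt
  push_neg at hlt
  have h5 : Nat.card V * p ^ p < Nat.card V * V.relIndex H :=
    Nat.mul_lt_mul_of_pos_left hlt hVpos
  rw [h3, mul_comm] at h5
  omega

end Cfsg.Agent.Lib.Helper84.BB
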